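import Cfsg.Agent.H443.Fx.Num
import Cfsg.Agent.H545.PQ.HaradaNorton

/-!
# Fixity 3 and 4: the row HN (helper443)
-/

set_option autoImplicit false

namespace Cfsg.Agent.H443.Fx

open Subgroup Cfsg.Agent.H254.Fx Cfsg.Agent.H545.PQ Equiv

/-- a pair of commuting elements gives a fact -/
theorem fact_of_pair {G : Type*} [Group G] [Finite G] {r s : ℕ} (h : Pair r s G) :
    ∃ x : G, orderOf x = r ∧ s ∣ Nat.card (normalizer (zpowers x : Set G)) := by
  obtain ⟨x, y, hx, hy, hxy⟩ := h
  exact fact_of_comm hx hy hxy.symm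

/-- **the row HN** -/
theorem no34_hn {G : Type*} [Group G] (h : Cfsg.Spor.IsoHN G) : No34 G := by
  obtain ⟨e⟩ := h
  have hc := HaradaNorton.card
  have : Finite Cfsg.Spor.HN := Nat.finite_of_card_ne_zero (by rw [hc]; norm_num)
  have h72 : Pair 7 2 Cfsg.Spor.HN := HaradaNorton.of_alt
    (Alt.pair_of_perm (by norm_num) (by norm_num) c[0, 1, 2, 3, 4, 5, 6] (c[7, 8] * c[9, 10]) (by decide +kernel)
      (by decide +kernel) (by decide +kernel) (by decide +kernel) (by decide +kernel) (by decide +kernel)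
      (by decide +kernel))
  refine No34.congr e.symm (no34_of_num 14 [(3, 6), (5, 6), (7, 1), (11, 1), (19, 1)] [] [(5, 2), (7, 2)] [] ?_ ?_ ?_
    ?_ ?_ ?_ ?_ ?_)
  · rw [hc]; decide +kernel
  · decide
  · decide
  · intro k D _ p hp; simp at hp
  · left; rw [hc]; decide +kernel
  · intro f hf
    simp only [List.mem_cons, List.not_mem_nil, or_false] at hf
    rcases hf with rfl | rfl
    · exact fact_of_pair HaradaNorton.pair_two_five.symm
    · exact fact_of_pair h72
  · intro e he; simp at he
  · decide +kernel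

end Cfsg.Agent.H443.Fx
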